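import Cfsg.Agent.H850.SQ.Moebius

/-!
# S4884, section 5: `mob` as a sum over chains, the Moebius lemma in an interval

* `mob_eq_chain`: `mob δ a b` is the sum of `(-1)^(|c| + 1) (δ (bottom of c) - δ a)` over the chains `c ∋ b` in `(a, b]`;
* `mob_eq_zero'`: the Moebius lemma in a partial order.
-/

set_option autoImplicit false

namespace Cfsg.Agent.H850.SQ

variable {P : Type*} [PartialOrder P] [Fintype P]

/-- **Moebius lemma**, partial order version. -/
theorem mob_eq_zero' (δ : P → ℤ) {a b u v : P} (pu pv : P → P)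
    (hpu : ∀ x, a ≤ x → x ≤ b → ∀ y, y ≤ pu x ↔ y ≤ x ∧ y ≤ u)
    (hpv : ∀ x, a ≤ x → x ≤ b → ∀ y, y ≤ pv x ↔ y ≤ x ∧ y ≤ v)
    (huv : ∀ y, y ≤ u → y ≤ v → y ≤ a) (hu : a < u) (hv : a < v) (hub : u ≤ b) (hvb : v ≤ b)
    (hδ : ∀ x, a ≤ x → x ≤ b → δ x - δ a = (δ (pu x) - δ a) + (δ (pv x) - δ a)) : mob δ a b = 0 := by
  classical
  have hab : a < b := hu.trans_le hub
  have h1 := mob_unique δ (a := a) (b := b) (g := fun x => if x ≤ u ∨ x ≤ v then mob δ a x else 0) (fun y hay hyb => by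
    have h2 := sum_mob δ (a := a) (b := pu y) ((hpu y hay hyb a).2 ⟨hay, hu.le⟩)
    have h3 := sum_mob δ (a := a) (b := pv y) ((hpv y hay hyb a).2 ⟨hay, hv.le⟩)
    rw [hδ y hay hyb, ← h2, ← h3, ← Finset.sum_filter, Finset.filter_filter, ← Finset.sum_union]
    · refine Finset.sum_congr ?_ fun _ _ => rfl
      ext x
      simp only [Finset.mem_filter, Finset.mem_univ, true_and, Finset.mem_union, hpu y hay hyb, hpv y hay hyb]
      tauto
    · rw [Finset.disjoint_left]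
      intro x hx hx'
      simp only [Finset.mem_filter, Finset.mem_univ, true_and, hpu y hay hyb, hpv y hay hyb] at hx hx'
      exact absurd (hx.1.trans_le (huv x hx.2.2 hx'.2.2)) (lt_irrefl _)) b hab le_rfl
  rw [← h1]
  show (if b ≤ u ∨ b ≤ v then mob δ a b else 0) = 0
  rw [if_neg]
  rintro (h2 | h2)
  · exact absurd (hv.trans_le (huv v (hvb.trans h2) le_rfl)) (lt_irrefl _)
  · exact absurd (hu.trans_le (huv u le_rfl (hub.trans h2))) (lt_irrefl _)

open Classical in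
/-- The chains in `(a, b]` containing `b`. -/
noncomputable def Fc (a b : P) : Finset (Finset P) :=
  Finset.univ.filter fun c => IsChain (· ≤ ·) (c : Set P) ∧ (∀ x ∈ c, a < x ∧ x ≤ b) ∧ b ∈ c

open Classical in
/-- The chains in `(a, b)`. -/
noncomputable def Gc (a b : P) : Finset (Finset P) :=
  Finset.univ.filter fun c => IsChain (· ≤ ·) (c : Set P) ∧ (∀ x ∈ c, a < x ∧ x < b)

theorem mem_Fc {a b : P} {c : Finset P} :
    c ∈ Fc a b ↔ IsChain (· ≤ ·) (c : Set P) ∧ (∀ x ∈ c, a < x ∧ x ≤ b) ∧ b ∈ c := by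
  simp [Fc]

theorem mem_Gc {a b : P} {c : Finset P} :
    c ∈ Gc a b ↔ IsChain (· ≤ ·) (c : Set P) ∧ (∀ x ∈ c, a < x ∧ x < b) := by
  simp [Gc]

open Classical in
theorem sum_Fc {a b : P} (hab : a < b) (w : Finset P → ℤ) :
    ∑ c ∈ Fc a b, w c = ∑ c ∈ Gc a b, w (insert b c) := by
  refine Finset.sum_bij' (fun c _ => c.erase b) (fun c _ => insert b c) ?_ ?_ ?_ ?_ ?_
  · intro c hc
    rw [mem_Fc] at hc
    rw [mem_Gc]
    refine ⟨hc.1.mono (by simp), fun x hx => ?_⟩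
    rw [Finset.mem_erase] at hx
    exact ⟨(hc.2.1 x hx.2).1, lt_of_le_of_ne (hc.2.1 x hx.2).2 hx.1⟩
  · intro c hc
    rw [mem_Gc] at hc
    rw [mem_Fc]
    refine ⟨?_, fun x hx => ?_, Finset.mem_insert_self _ _⟩
    · rw [Finset.coe_insert]
      exact hc.1.insert fun x hx _ => Or.inr (hc.2 x hx).2.le
    · rcases Finset.mem_insert.1 hx with rfl | hx
      · exact ⟨hab, le_rfl⟩
      · exact ⟨(hc.2 x hx).1, (hc.2 x hx).2.le⟩
  · intro c hc
    rw [mem_Fc] at hc
    exact Finset.insert_erase hc.2.2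
  · intro c hc
    rw [mem_Gc] at hc
    exact Finset.erase_insert fun h => absurd (hc.2 b h).2 (lt_irrefl _)
  · intro c hc
    rw [mem_Fc] at hc
    rw [Finset.insert_erase hc.2.2]

open Classical in
theorem sum_Gc {a b : P} (w : Finset P → ℤ) :
    ∑ c ∈ Gc a b, w c = w ∅ + ∑ x : {x : P // a < x ∧ x < b}, ∑ c ∈ Fc a x.1, w c := by
  have h1 : Gc a b = insert ∅ ((Finset.univ : Finset {x : P // a < x ∧ x < b}).biUnion fun x => Fc a x.1) := by
    ext c
    rw [Finset.mem_insert, Finset.mem_biUnion, mem_Gc]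
    constructor
    · rintro ⟨h1, h2⟩
      rcases c.eq_empty_or_nonempty with h3 | h3
      · exact Or.inl h3
      · right
        obtain ⟨x, hx, hx'⟩ := Finset.exists_maximal h3
        refine ⟨⟨x, h2 x hx⟩, Finset.mem_univ _, ?_⟩
        rw [mem_Fc]
        refine ⟨h1, fun y hy => ⟨(h2 y hy).1, ?_⟩, hx⟩
        rcases h1.total hx hy with h4 | h4
        · exact hx' hy h4
        · exact h4
    · rintro (rfl | ⟨x, -, hx⟩)
      · exact ⟨by simp, by simp⟩
      · rw [mem_Fc] at hx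
        exact ⟨hx.1, fun y hy => ⟨(hx.2.1 y hy).1, (hx.2.1 y hy).2.trans_lt x.2.2⟩⟩
  rw [h1, Finset.sum_insert, Finset.sum_biUnion]
  · intro x _ y _ hxy
    rw [Function.onFun, Finset.disjoint_left]
    intro c hc hc'
    rw [mem_Fc] at hc hc'
    exact hxy (Subtype.ext (le_antisymm (hc'.2.1 _ hc.2.2).2 (hc.2.1 _ hc'.2.2).2))
  · rw [Finset.mem_biUnion]
    rintro ⟨x, -, hx⟩
    rw [mem_Fc] at hx
    simpa using hx.2.2

open Classical in
/-- **`mob` as a sum over chains.** -/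
theorem mob_eq_chain (δ : P → ℤ) {a : P} (w : Finset P → ℤ) (h1 : ∀ b, a < b → w {b} = δ b - δ a)
    (h2 : ∀ b c, a < b → c ∈ Gc a b → c.Nonempty → w (insert b c) = - w c) :
    ∀ b, a < b → ∑ c ∈ Fc a b, w c = mob δ a b := by
  intro b
  induction b using WellFoundedLT.induction with
  | _ b ih =>
    intro hab
    rw [sum_Fc hab, sum_Gc (fun c => w (insert b c)), mob_eq, if_pos hab]
    have h3 : w (insert b ∅) = δ b - δ a := by
      rw [← h1 b hab]
      rfl
    rw [h3, sub_eq_add_neg _ (∑ x : {x : P // a < x ∧ x < b}, mob δ a x.1), ← Finset.sum_neg_distrib]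
    refine congrArg₂ _ rfl (Finset.sum_congr rfl fun x _ => ?_)
    rw [← ih x.1 x.2.2 x.2.1, ← Finset.sum_neg_distrib]
    refine Finset.sum_congr rfl fun c hc => ?_
    rw [mem_Fc] at hc
    refine h2 b c hab ?_ ⟨_, hc.2.2⟩
    rw [mem_Gc]
    exact ⟨hc.1, fun y hy => ⟨(hc.2.1 y hy).1, (hc.2.1 y hy).2.trans_lt x.2.2⟩⟩

end Cfsg.Agent.H850.SQ
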