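import Cfsg.Agent.H850.SQ.Rho

/-!
# S4884, piece E2 of the interface of helper439: `rho = 0` for a non-primary quotient
-/

set_option autoImplicit false

namespace Cfsg.Agent.H850.SQ

open Cfsg.Agent.H439.CC

universe u v

section

variable {F : Type*} [Field F] {V : Type*} [AddCommGroup V] [Module F V]

theorem map_eq_iff {U : Submodule F V} {y : V ≃ₗ[F] V} :
    U.map (y : V →ₗ[F] V) = U ↔ ∀ v, y v ∈ U ↔ v ∈ U := by
  constructor
  · intro h v
    constructor
    · intro hv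
      rw [← h] at hv
      obtain ⟨w, hw, hw'⟩ := hv
      rw [LinearEquiv.coe_coe] at hw'
      rwa [← y.injective hw']
    · intro hv
      rw [← h]
      exact ⟨v, hv, rfl⟩
  · intro h
    ext w
    constructor
    · rintro ⟨v, hv, rfl⟩
      exact (h v).2 hv
    · intro hw
      refine ⟨y.symm w, ?_, by simp⟩
      rw [SetLike.mem_coe, ← h, LinearEquiv.apply_symm_apply]
      exact hw

theorem aeval_mem {U : Submodule F V} {x : V ≃ₗ[F] V} (h : U.map (x : V →ₗ[F] V) = U) (p : Polynomial F) {v : V}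
    (hv : v ∈ U) : Polynomial.aeval (x : V →ₗ[F] V) p v ∈ U := by
  induction p using Polynomial.induction_on' generalizing v with
  | add p q hp hq =>
    rw [map_add, LinearMap.add_apply]
    exact U.add_mem (hp hv) (hq hv)
  | monomial n a =>
    rw [Polynomial.aeval_monomial, Module.End.mul_apply, Module.algebraMap_end_apply]
    refine U.smul_mem _ ?_
    clear a
    induction n generalizing v with
    | zero => simpa using hv
    | succ n ih =>
      rw [pow_succ, Module.End.mul_apply]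
      exact ih ((map_eq_iff.1 h v).2 hv)

theorem aeval_comm {x y : V ≃ₗ[F] V} (h : x * y = y * x) (p : Polynomial F) (v : V) :
    Polynomial.aeval (x : V →ₗ[F] V) p (y v) = y (Polynomial.aeval (x : V →ₗ[F] V) p v) := by
  induction p using Polynomial.induction_on' generalizing v with
  | add p q hp hq =>
    rw [map_add, LinearMap.add_apply, LinearMap.add_apply, map_add, hp, hq]
  | monomial n a =>
    rw [Polynomial.aeval_monomial, Module.End.mul_apply, Module.algebraMap_end_apply, Module.End.mul_apply,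
      Module.algebraMap_end_apply, map_smul]
    congr 1
    clear a
    induction n generalizing v with
    | zero => simp
    | succ n ih =>
      have h1 : x (y v) = y (x v) := by
        have := congrArg (fun g : V ≃ₗ[F] V => g v) h
        simpa using this
      rw [pow_succ, Module.End.mul_apply, Module.End.mul_apply, LinearEquiv.coe_coe, h1]
      exact ih (x v)

/-- the part of `B / A` killed by `p(x)` -/
noncomputable def KP (x : V ≃ₗ[F] V) (A B : Submodule F V) (p : Polynomial F) : Submodule F V :=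
  B ⊓ A.comap (Polynomial.aeval (x : V →ₗ[F] V) p)

theorem mem_KP {x : V ≃ₗ[F] V} {A B : Submodule F V} {p : Polynomial F} {v : V} :
    v ∈ KP x A B p ↔ v ∈ B ∧ Polynomial.aeval (x : V →ₗ[F] V) p v ∈ A := by
  rw [KP, Submodule.mem_inf, Submodule.mem_comap]

theorem KP_stable {x y : V ≃ₗ[F] V} (h : x * y = y * x) {A B : Submodule F V} (hA : A.map (y : V →ₗ[F] V) = A)
    (hB : B.map (y : V →ₗ[F] V) = B) (p : Polynomial F) : (KP x A B p).map (y : V →ₗ[F] V) = KP x A B p := by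
  rw [map_eq_iff] at hA hB ⊢
  intro v
  rw [mem_KP, mem_KP, aeval_comm h, hA, hB]

theorem le_KP {x : V ≃ₗ[F] V} {A B : Submodule F V} (hA : A.map (x : V →ₗ[F] V) = A) (hAB : A ≤ B)
    (p : Polynomial F) : A ≤ KP x A B p := fun _ hv => mem_KP.2 ⟨hAB hv, aeval_mem hA p hv⟩

theorem KP_le {x : V ≃ₗ[F] V} {A B : Submodule F V} (p : Polynomial F) : KP x A B p ≤ B := inf_le_left

theorem split {x : V ≃ₗ[F] V} {A B : Submodule F V} (hA : A.map (x : V →ₗ[F] V) = A) {p₁ p₂ a b : Polynomial F}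
    (hab : a * p₁ + b * p₂ = 1) (h : ∀ v ∈ B, Polynomial.aeval (x : V →ₗ[F] V) (p₁ * p₂) v ∈ A)
    {U : Submodule F V} (hU : U.map (x : V →ₗ[F] V) = U) (hUB : U ≤ B) {v : V} (hv : v ∈ U) :
    ∃ v₁ ∈ U ⊓ KP x A B p₁, ∃ v₂ ∈ U ⊓ KP x A B p₂, v = v₁ + v₂ := by
  have key : ∀ c p q : Polynomial F, (∀ v ∈ B, Polynomial.aeval (x : V →ₗ[F] V) (q * p) v ∈ A) →
      Polynomial.aeval (x : V →ₗ[F] V) (c * p) v ∈ U ⊓ KP x A B q := by
    intro c p q hpq
    have h1 := aeval_mem hU (c * p) hv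
    rw [Submodule.mem_inf, mem_KP]
    refine ⟨h1, hUB h1, ?_⟩
    rw [← Module.End.mul_apply, ← map_mul, show q * (c * p) = c * (q * p) by ring, map_mul, Module.End.mul_apply]
    exact aeval_mem hA c (hpq v (hUB hv))
  refine ⟨_, key b p₂ p₁ h, _, key a p₁ p₂ (by rwa [mul_comm p₂ p₁]), ?_⟩
  rw [← LinearMap.add_apply, ← map_add, add_comm (b * p₂), hab, map_one, Module.End.one_apply]

theorem inf_KP_le {x : V ≃ₗ[F] V} {A B : Submodule F V} (hA : A.map (x : V →ₗ[F] V) = A) {p₁ p₂ a b : Polynomial F}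
    (hab : a * p₁ + b * p₂ = 1) : KP x A B p₁ ⊓ KP x A B p₂ ≤ A := by
  intro v hv
  rw [Submodule.mem_inf, mem_KP, mem_KP] at hv
  have h1 : v = Polynomial.aeval (x : V →ₗ[F] V) a (Polynomial.aeval (x : V →ₗ[F] V) p₁ v) +
      Polynomial.aeval (x : V →ₗ[F] V) b (Polynomial.aeval (x : V →ₗ[F] V) p₂ v) := by
    rw [← Module.End.mul_apply, ← Module.End.mul_apply, ← LinearMap.add_apply, ← map_mul, ← map_mul, ← map_add, hab,
      map_one, Module.End.one_apply]
  rw [h1]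
  exact A.add_mem (aeval_mem hA a hv.1.2) (aeval_mem hA b hv.2.2)

theorem finrank_split [Module.Finite F V] {x : V ≃ₗ[F] V} {A B : Submodule F V} (hA : A.map (x : V →ₗ[F] V) = A)
    {p₁ p₂ a b : Polynomial F} (hab : a * p₁ + b * p₂ = 1)
    (h : ∀ v ∈ B, Polynomial.aeval (x : V →ₗ[F] V) (p₁ * p₂) v ∈ A)
    {U : Submodule F V} (hU : U.map (x : V →ₗ[F] V) = U) (hAU : A ≤ U) (hUB : U ≤ B) :
    Module.finrank F (U ⊓ KP x A B p₁ : Submodule F V) + Module.finrank F (U ⊓ KP x A B p₂ : Submodule F V) =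
      Module.finrank F U + Module.finrank F A := by
  have h1 := Submodule.finrank_sup_add_finrank_inf_eq (U ⊓ KP x A B p₁) (U ⊓ KP x A B p₂)
  have h2 : (U ⊓ KP x A B p₁) ⊔ (U ⊓ KP x A B p₂) = U := by
    apply le_antisymm (sup_le inf_le_left inf_le_left)
    intro v hv
    obtain ⟨v₁, h₁, v₂, h₂, rfl⟩ := split hA hab h hU hUB hv
    exact Submodule.add_mem_sup h₁ h₂
  have h3 : (U ⊓ KP x A B p₁) ⊓ (U ⊓ KP x A B p₂) = A := by
    apply le_antisymm
    · exact (inf_le_inf inf_le_right inf_le_right).trans (inf_KP_le hA hab)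
    · have hAB := hAU.trans hUB
      exact le_inf (le_inf hAU (le_KP hA hAB _)) (le_inf hAU (le_KP hA hAB _))
  rw [h2, h3] at h1
  exact h1.symm

theorem lt_KP {x : V ≃ₗ[F] V} {A B : Submodule F V} (hA : A.map (x : V →ₗ[F] V) = A) (hB : B.map (x : V →ₗ[F] V) = B)
    (hAB : A ≤ B) {p₁ p₂ a b : Polynomial F} (hab : a * p₁ + b * p₂ = 1)
    (h : ∀ v ∈ B, Polynomial.aeval (x : V →ₗ[F] V) (p₁ * p₂) v ∈ A)
    (h2 : ¬ ∀ v ∈ B, Polynomial.aeval (x : V →ₗ[F] V) p₂ v ∈ A) : A < KP x A B p₁ := by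
  refine lt_of_le_of_ne (le_KP hA hAB p₁) fun h3 => h2 fun v hv => ?_
  obtain ⟨v₁, h₁, v₂, h₂, rfl⟩ := split hA hab h hB le_rfl hv
  rw [map_add]
  refine A.add_mem (aeval_mem hA p₂ ?_) (mem_KP.1 h₂.2).2
  rw [h3]
  exact h₁.2

end

/-- **E2**. -/
theorem eTwo : E2.{u, v} := by
  intro F _ _ V _ _ _ Adm hdown X x hx hcomm A B k hAB hk hP
  have : Finite V := Module.finite_of_finite F
  have : Finite (Submodule F V) := Finite.of_injective (fun U : Submodule F V => (U : Set V)) SetLike.coe_injective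
  have : Finite (StP Adm X) := inferInstanceAs
    (Finite {U : Submodule F V // Adm U ∧ ∀ x ∈ X, U.map (x : V →ₗ[F] V) = U})
  let _ : Fintype (StP Adm X) := Fintype.ofFinite _
  have hrk : StrictMono (rkS Adm X) := fun U U' h => Submodule.finrank_lt_finrank_of_lt h
  rw [rho_eq_mob hrk hAB hk]
  unfold Prim at hP
  push Not at hP
  obtain ⟨p₁, p₂, ⟨a, b, hab⟩, h, ⟨v₁, hv₁, hv₁'⟩, ⟨v₂, hv₂, hv₂'⟩⟩ := hP
  have hAx := A.2.2 x hx
  have hBx := B.2.2 x hx
  have hAB' : A.1 ≤ B.1 := hAB.le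
  have hst : ∀ p : Polynomial F, ∀ y ∈ X, (KP x A.1 B.1 p).map (y : V →ₗ[F] V) = KP x A.1 B.1 p :=
    fun p y hy => KP_stable (hcomm y hy) (A.2.2 y hy) (B.2.2 y hy) p
  let K : Polynomial F → StP Adm X := fun p => ⟨KP x A.1 B.1 p, hdown _ _ (KP_le p) B.2.1, hst p⟩
  have hinf : ∀ U U' : StP Adm X, Adm (U.1 ⊓ U'.1) ∧ ∀ y ∈ X, (U.1 ⊓ U'.1).map (y : V →ₗ[F] V) = U.1 ⊓ U'.1 := by
    intro U U'
    refine ⟨hdown _ _ inf_le_left U.2.1, fun y hy => ?_⟩
    rw [map_eq_iff]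
    intro v
    rw [Submodule.mem_inf, Submodule.mem_inf, map_eq_iff.1 (U.2.2 y hy), map_eq_iff.1 (U'.2.2 y hy)]
  refine mob_eq_zero' _ (u := K p₁) (v := K p₂) (fun U => ⟨U.1 ⊓ (K p₁).1, hinf U (K p₁)⟩)
    (fun U => ⟨U.1 ⊓ (K p₂).1, hinf U (K p₂)⟩) ?_ ?_ ?_ ?_ ?_ ?_ ?_ ?_
  · intro U _ _ U'
    exact le_inf_iff (c := U'.1) (a := U.1) (b := (K p₁).1)
  · intro U _ _ U'
    exact le_inf_iff (c := U'.1) (a := U.1) (b := (K p₂).1)
  · intro U h1 h2
    exact (le_inf (c := U.1) (a := KP x A.1 B.1 p₁) (b := KP x A.1 B.1 p₂) h1 h2).trans (inf_KP_le hAx hab)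
  · exact lt_KP hAx hBx hAB' hab h fun h1 => hv₂' (h1 v₂ hv₂)
  · have h1 := lt_KP (p₁ := p₂) (p₂ := p₁) (a := b) (b := a) hAx hBx hAB' (by rw [add_comm]; exact hab)
      (by rw [mul_comm]; exact h) fun h1 => hv₁' (h1 v₁ hv₁)
    exact h1
  · exact KP_le p₁
  · exact KP_le p₂
  · intro U h1 h2
    have h3 := finrank_split hAx hab h (U.2.2 x hx) h1 h2
    have h4 : ((rkS Adm X ⟨U.1 ⊓ (K p₁).1, hinf U (K p₁)⟩ + rkS Adm X ⟨U.1 ⊓ (K p₂).1, hinf U (K p₂)⟩ : ℕ) : ℤ) =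
        ((rkS Adm X U + rkS Adm X A : ℕ) : ℤ) := congrArg _ h3
    push_cast at h4
    linarith

end Cfsg.Agent.H850.SQ
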