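import Mathlib

/-!
# S4884, section 5 (EV): the Moebius lemma

`P` a finite partial order, `δ : P → ℤ`. `mob δ a b = ∑ (-1)^(l-1) (δ x₁ - δ a)` over the chains `a < x₁ < .. < x_l = b`.

* `sum_mob`: `∑_{a < x ≤ b} mob δ a x = δ b - δ a` for `a ≤ b`;
* `mob_unique`;
* `mob_eq_zero`: **Moebius lemma**: `mob δ a b = 0` if the interval `[a, b]` is a product and `δ - δ a` is additive on it.
-/

set_option autoImplicit false

namespace Cfsg.Agent.H850.SQ

section order

variable {P : Type*} [PartialOrder P] [Fintype P]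

open Classical in
/-- Alternating sum over the chains from `a` to `b`. -/
noncomputable def mob (δ : P → ℤ) (a : P) : P → ℤ :=
  WellFounded.fix (wellFounded_lt (α := P)) fun b ih =>
    if a < b then δ b - δ a - ∑ x : {x : P // a < x ∧ x < b}, ih x.1 x.2.2 else 0

open Classical in
theorem mob_eq (δ : P → ℤ) (a b : P) :
    mob δ a b = if a < b then δ b - δ a - ∑ x : {x : P // a < x ∧ x < b}, mob δ a x.1 else 0 := by
  unfold mob
  rw [WellFounded.fix_eq]

open Classical in
theorem sum_mob (δ : P → ℤ) {a b : P} (hab : a ≤ b) :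
    ∑ x ∈ Finset.univ.filter (fun x => a < x ∧ x ≤ b), mob δ a x = δ b - δ a := by
  rcases eq_or_lt_of_le hab with h | h
  · subst h
    rw [Finset.filter_false_of_mem (fun x _ hx => absurd (lt_of_lt_of_le hx.1 hx.2) (lt_irrefl _)), Finset.sum_empty,
      sub_self]
  · have h1 : (Finset.univ.filter fun x => a < x ∧ x ≤ b) =
        insert b (Finset.univ.filter fun x => a < x ∧ x < b) := by
      ext x
      simp only [Finset.mem_filter, Finset.mem_univ, true_and, Finset.mem_insert]
      constructor
      · rintro ⟨h2, h3⟩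
        rcases eq_or_lt_of_le h3 with h4 | h4
        · exact Or.inl h4
        · exact Or.inr ⟨h2, h4⟩
      · rintro (rfl | ⟨h2, h3⟩)
        · exact ⟨h, le_rfl⟩
        · exact ⟨h2, h3.le⟩
    rw [h1, Finset.sum_insert (by simp), mob_eq δ a b, if_pos h,
      Finset.sum_subtype (p := fun x => a < x ∧ x < b) (Finset.univ.filter fun x => a < x ∧ x < b) (fun x => by simp)]
    ring

open Classical in
theorem mob_unique (δ : P → ℤ) {a b : P} {g : P → ℤ}
    (hg : ∀ y, a ≤ y → y ≤ b → ∑ x ∈ Finset.univ.filter (fun x => a < x ∧ x ≤ y), g x = δ y - δ a) :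
    ∀ y, a < y → y ≤ b → g y = mob δ a y := by
  intro y
  induction y using WellFoundedLT.induction with
  | _ y ih =>
    intro hay hyb
    have h1 := hg y hay.le hyb
    have h2 := sum_mob δ hay.le
    have h3 : (Finset.univ.filter fun x => a < x ∧ x ≤ y) =
        insert y (Finset.univ.filter fun x => a < x ∧ x < y) := by
      ext x
      simp only [Finset.mem_filter, Finset.mem_univ, true_and, Finset.mem_insert]
      constructor
      · rintro ⟨h2, h3⟩
        rcases eq_or_lt_of_le h3 with h4 | h4
        · exact Or.inl h4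
        · exact Or.inr ⟨h2, h4⟩
      · rintro (rfl | ⟨h2, h3⟩)
        · exact ⟨hay, le_rfl⟩
        · exact ⟨h2, h3.le⟩
    rw [h3, Finset.sum_insert (by simp)] at h1 h2
    have h4 : ∑ x ∈ Finset.univ.filter (fun x => a < x ∧ x < y), g x =
        ∑ x ∈ Finset.univ.filter (fun x => a < x ∧ x < y), mob δ a x := by
      refine Finset.sum_congr rfl fun x hx => ?_
      rw [Finset.mem_filter] at hx
      exact ih x hx.2.2 hx.2.1 (hx.2.2.le.trans hyb)
    rw [h4] at h1
    linarith

end order

section lattice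

variable {P : Type*} [Lattice P] [Fintype P]

/-- **Moebius lemma.** -/
theorem mob_eq_zero (δ : P → ℤ) {a b u v : P} (huv : u ⊓ v = a) (hu : a < u) (hv : a < v) (hub : u ≤ b) (hvb : v ≤ b)
    (hδ : ∀ x, a ≤ x → x ≤ b → δ x - δ a = (δ (x ⊓ u) - δ a) + (δ (x ⊓ v) - δ a)) : mob δ a b = 0 := by
  classical
  have hab : a < b := hu.trans_le hub
  have h1 := mob_unique δ (a := a) (b := b) (g := fun x => if x ≤ u ∨ x ≤ v then mob δ a x else 0) (fun y hay hyb => by
    have h2 := sum_mob δ (a := a) (b := y ⊓ u) (le_inf hay hu.le)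
    have h3 := sum_mob δ (a := a) (b := y ⊓ v) (le_inf hay hv.le)
    rw [hδ y hay hyb, ← h2, ← h3, ← Finset.sum_filter, Finset.filter_filter, ← Finset.sum_union]
    · refine Finset.sum_congr ?_ fun _ _ => rfl
      ext x
      simp only [Finset.mem_filter, Finset.mem_univ, true_and, Finset.mem_union, le_inf_iff]
      tauto
    · rw [Finset.disjoint_left]
      intro x hx hx'
      simp only [Finset.mem_filter, Finset.mem_univ, true_and, le_inf_iff] at hx hx'
      have h4 : x ≤ a := by
        rw [← huv]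
        exact le_inf hx.2.2 hx'.2.2
      exact absurd (hx.1.trans_le h4) (lt_irrefl _)) b hab le_rfl
  rw [← h1]
  show (if b ≤ u ∨ b ≤ v then mob δ a b else 0) = 0
  rw [if_neg]
  rintro (h2 | h2)
  · have h3 : v ≤ u := hvb.trans h2
    rw [inf_eq_right.2 h3] at huv
    exact hv.ne' huv
  · have h3 : u ≤ v := hub.trans h2
    rw [inf_eq_left.2 h3] at huv
    exact hu.ne' huv

end lattice

end Cfsg.Agent.H850.SQ
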