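import Cfsg.Agent.H850.SQ.Chain
import Cfsg.Agent.H439.CC.Defs
import Cfsg.Agent.H617.EqD.CoL

/-!
# S4884, section 5: `rho = mob` (interface of helper439), `coL` on subsets of `[1, k]`
-/

set_option autoImplicit false

namespace Cfsg.Agent.H850.SQ

open Cfsg.Agent.H439.CC

theorem coL_single {k : ℕ} {K : Finset ℕ} (hK : K ⊆ Finset.Icc 1 k) (hk : k ∈ K) :
    coL [k] K = (-1) ^ (K.card + 1) * (K.min' ⟨k, hk⟩ : ℤ) := by
  rw [coL, dif_pos hk]
  have h1 : (K.filter fun x => k < x) = ∅ := by
    rw [Finset.filter_eq_empty_iff]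
    intro x hx
    exact not_lt.2 (Finset.mem_Icc.1 (hK hx)).2
  have h2 : (K.filter fun x => x < k) = K.erase k := by
    ext x
    rw [Finset.mem_filter, Finset.mem_erase]
    constructor
    · rintro ⟨h3, h4⟩
      exact ⟨h4.ne, h3⟩
    · rintro ⟨h3, h4⟩
      exact ⟨h4, lt_of_le_of_ne (Finset.mem_Icc.1 (hK h4)).2 h3⟩
  rw [h1, h2, Finset.image_empty, coL, if_pos rfl, mul_one, Finset.card_erase_of_mem hk]
  have h3 : 0 < K.card := Finset.card_pos.2 ⟨k, hk⟩
  obtain ⟨n, hn⟩ : ∃ n, K.card = n + 1 := ⟨K.card - 1, by omega⟩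
  rw [hn, Nat.add_sub_cancel, pow_add, pow_add]
  norm_num

section

variable {P : Type*} [PartialOrder P] [Fintype P]

/-- relative ranks -/
def im (rk : P → ℕ) (A : P) (c : Finset P) : Finset ℕ := c.image fun x => rk x - rk A

omit [Fintype P] in
theorem rk_inj {rk : P → ℕ} (hrk : StrictMono rk) {A : P} {c : Finset P} (hc : IsChain (· ≤ ·) (c : Set P))
    (hA : ∀ x ∈ c, A < x) : Set.InjOn (fun x => rk x - rk A) (c : Set P) := by
  intro x hx y hy hxy
  have h1 := hrk (hA x hx)
  have h2 := hrk (hA y hy)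
  have h3 : rk x = rk y := by
    simp only at hxy
    omega
  rcases hc.total hx hy with h | h
  · rcases eq_or_lt_of_le h with h4 | h4
    · exact h4
    · exact absurd (hrk h4) (by omega)
  · rcases eq_or_lt_of_le h with h4 | h4
    · exact h4.symm
    · exact absurd (hrk h4) (by omega)

/-- the weight of a chain -/
noncomputable def wt (rk : P → ℕ) (A : P) (c : Finset P) : ℤ :=
  if h : (im rk A c).Nonempty then (-1) ^ (c.card + 1) * ((im rk A c).min' h : ℤ) else 0

omit [Fintype P] in
theorem wt_single {rk : P → ℕ} (hrk : StrictMono rk) {A b : P} (hb : A < b) :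
    wt rk A {b} = (rk b : ℤ) - rk A := by
  have h : (im rk A {b}).Nonempty := by simp [im]
  rw [wt, dif_pos h]
  have h1 : (im rk A {b}).min' h = rk b - rk A := by
    have h2 := (im rk A {b}).min'_mem h
    simpa only [im, Finset.image_singleton, Finset.mem_singleton] using h2
  rw [h1, Finset.card_singleton, Nat.cast_sub (hrk hb).le]
  norm_num

open Classical in
theorem wt_insert {rk : P → ℕ} (hrk : StrictMono rk) {A b : P} {c : Finset P} (hc : c ∈ Gc A b)
    (hne : c.Nonempty) : wt rk A (insert b c) = - wt rk A c := by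
  rw [mem_Gc] at hc
  have h : (im rk A c).Nonempty := by simpa [im] using hne
  have h' : (im rk A (insert b c)).Nonempty := by simp [im]
  rw [wt, dif_pos h', wt, dif_pos h]
  have hb' : b ∉ c := fun hb' => absurd (hc.2 b hb').2 (lt_irrefl _)
  have h1 : (im rk A (insert b c)).min' h' = (im rk A c).min' h := by
    apply le_antisymm
    · apply Finset.min'_le
      have h2 := (im rk A c).min'_mem h
      rw [im, Finset.image_insert]
      exact Finset.mem_insert_of_mem h2
    · apply Finset.le_min'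
      intro y hy
      rw [im, Finset.image_insert, Finset.mem_insert] at hy
      rcases hy with rfl | hy
      · obtain ⟨x, hx⟩ := hne
        refine ((im rk A c).min'_le _ (Finset.mem_image_of_mem _ hx)).trans ?_
        have := hrk (hc.2 x hx).2
        omega
      · exact (im rk A c).min'_le _ hy
  rw [h1, Finset.card_insert_of_notMem hb', pow_succ (-1 : ℤ) (c.card + 1)]
  ring

/-- **`rho = mob`.** -/
theorem rho_eq_mob {rk : P → ℕ} (hrk : StrictMono rk) {A B : P} {k : ℕ} (hAB : A < B) (hk : rk B = rk A + k) :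
    rho rk k A B = mob (fun x => (rk x : ℤ)) A B := by
  classical
  rw [← mob_eq_chain (fun x => (rk x : ℤ)) (wt rk A) (fun b hb => wt_single hrk hb)
    (fun b c _ hc hne => wt_insert hrk hc hne) B hAB]
  have himg : ∀ c ∈ Fc A B, im rk A c ∈ (Finset.Icc 1 k).powerset := by
    intro c hc
    rw [mem_Fc] at hc
    rw [Finset.mem_powerset]
    intro y hy
    obtain ⟨x, hx, rfl⟩ := Finset.mem_image.1 hy
    have h1 := hrk (hc.2.1 x hx).1
    have h2 := hrk.monotone (hc.2.1 x hx).2
    rw [Finset.mem_Icc]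
    omega
  have h1 : ∀ c ∈ Fc A B, wt rk A c = coL [k] (im rk A c) := by
    intro c hc
    have h2 := himg c hc
    rw [mem_Fc] at hc
    have h3 : k ∈ im rk A c := by
      rw [im, Finset.mem_image]
      exact ⟨B, hc.2.2, by omega⟩
    rw [coL_single (Finset.mem_powerset.1 h2) h3, wt, dif_pos ⟨k, h3⟩]
    have h4 : (im rk A c).card = c.card :=
      Finset.card_image_of_injOn (rk_inj hrk hc.1 fun x hx => (hc.2.1 x hx).1)
    rw [h4]
  rw [Finset.sum_congr rfl h1, ← Finset.sum_fiberwise_of_maps_to himg, rho]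
  refine Finset.sum_congr rfl fun K _ => ?_
  have h5 : ∀ c ∈ (Fc A B).filter (fun c => im rk A c = K), coL [k] (im rk A c) = coL [k] K := by
    intro c hc
    rw [(Finset.mem_filter.1 hc).2]
  rw [Finset.sum_congr rfl h5, Finset.sum_const, nsmul_eq_mul, mul_comm]
  congr 1
  rw [flB, Nat.card_eq_fintype_card, Fintype.card_subtype]
  congr 1
  congr 1
  ext c
  refine (Finset.mem_filter.trans ?_).trans Finset.mem_filter.symm
  rw [mem_Fc]
  change _ ∧ (_ ∧ _ ∧ _ ∧ im rk A c = K) ↔ _
  simp only [Finset.mem_univ, true_and]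
  tauto

end

end Cfsg.Agent.H850.SQ
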